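import Mathlib.GroupTheory.OrderOfElement
import Mathlib.Algebra.GCDMonoid.Nat

/-! Spectra of direct powers times an elementary abelian group: an abstract criterion. -/

set_option autoImplicit false

namespace CfsgLib.GLOrders

/-- If every element order of `L` divides `S * P` or can be multiplied by the prime `r`, and `S`, `P`, `r` are
(divisors of) orders, then three factors absorb an extra group of exponent `r`. -/
theorem range_orderOf_cube_mul {L Z : Type*} [Group L] [Finite L] [Group Z] [Finite Z] (r S P : ℕ) (hr : r.Prime)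
    (hZ : ∀ z : Z, z ^ r = 1) (hSP : Nat.Coprime S P)
    (hdich : ∀ a : L, orderOf a ∣ S * P ∨ ∃ y : L, Commute a y ∧ orderOf y = r)
    (xS xP xr : L) (hS : S ∣ orderOf xS) (hP : P ∣ orderOf xP) (hR : r ∣ orderOf xr) :
    Set.range (orderOf : L × L × L × Z → ℕ) = Set.range (orderOf : L × L × L → ℕ) := by
  have hgood : ∀ a : L, orderOf a ∣ S * P ∨ ∃ a' : L, orderOf a ∣ orderOf a' ∧ r ∣ orderOf a' := by
    intro a
    rcases hdich a with h | ⟨y, hcomm, hy⟩
    · exact Or.inl h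
    · by_cases hra : r ∣ orderOf a
      · exact Or.inr ⟨a, dvd_rfl, hra⟩
      · have hcop : Nat.Coprime (orderOf a) (orderOf y) := by
          rw [hy]; exact (hr.coprime_iff_not_dvd.mpr hra).symm
        refine Or.inr ⟨a * y, ?_, ?_⟩ <;> rw [hcomm.orderOf_mul_eq_mul_orderOf_of_coprime hcop, hy]
        · exact dvd_mul_right _ _
        · exact dvd_mul_left _ _
  ext o
  constructor
  · rintro ⟨⟨a, b, c, z⟩, rfl⟩
    have hz : orderOf z ∣ r := orderOf_dvd_of_pow_eq_one (hZ z)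
    obtain ⟨t, ht⟩ : ∃ t : L × L × L, orderOf (a, b, c, z) ∣ orderOf t := by
      simp only [Prod.orderOf]
      rcases hgood a with ha | ⟨a', h1, h2⟩
      · rcases hgood b with hb | ⟨b', h1, h2⟩
        · rcases hgood c with hc | ⟨c', h1, h2⟩
          · refine ⟨(xS, xP, xr), ?_⟩
            simp only [Prod.orderOf]
            have h : S * P ∣ Nat.lcm (orderOf xS) (Nat.lcm (orderOf xP) (orderOf xr)) := by
              refine hSP.mul_dvd_of_dvd_of_dvd (hS.trans (Nat.dvd_lcm_left _ _)) ?_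
              exact hP.trans ((Nat.dvd_lcm_left _ _).trans (Nat.dvd_lcm_right _ _))
            exact Nat.lcm_dvd (ha.trans h) (Nat.lcm_dvd (hb.trans h) (Nat.lcm_dvd (hc.trans h)
              (hz.trans (hR.trans ((Nat.dvd_lcm_right _ _).trans (Nat.dvd_lcm_right _ _))))))
          · refine ⟨(a, b, c'), ?_⟩
            simp only [Prod.orderOf]
            exact Nat.lcm_dvd (Nat.dvd_lcm_left _ _) (Nat.lcm_dvd ((Nat.dvd_lcm_left _ _).trans (Nat.dvd_lcm_right _ _))
              ((Nat.lcm_dvd h1 (hz.trans h2)).trans ((Nat.dvd_lcm_right _ _).trans (Nat.dvd_lcm_right _ _))))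
        · refine ⟨(a, b', c), ?_⟩
          simp only [Prod.orderOf]
          exact Nat.lcm_dvd (Nat.dvd_lcm_left _ _) (Nat.lcm_dvd (h1.trans ((Nat.dvd_lcm_left _ _).trans (Nat.dvd_lcm_right _ _)))
            (Nat.lcm_dvd ((Nat.dvd_lcm_right _ _).trans (Nat.dvd_lcm_right _ _))
              (hz.trans (h2.trans ((Nat.dvd_lcm_left _ _).trans (Nat.dvd_lcm_right _ _))))))
      · refine ⟨(a', b, c), ?_⟩
        simp only [Prod.orderOf]
        exact Nat.lcm_dvd (h1.trans (Nat.dvd_lcm_left _ _)) (Nat.lcm_dvd ((Nat.dvd_lcm_left _ _).trans (Nat.dvd_lcm_right _ _))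
          (Nat.lcm_dvd ((Nat.dvd_lcm_right _ _).trans (Nat.dvd_lcm_right _ _)) (hz.trans (h2.trans (Nat.dvd_lcm_left _ _)))))
    obtain ⟨k, hk⟩ := ht
    refine ⟨t ^ k, ?_⟩
    have hpos := orderOf_pos (a, b, c, z)
    have hk0 : k ≠ 0 := by
      rintro rfl
      have := orderOf_pos t
      simp [hk] at this
    rw [orderOf_pow_of_dvd hk0 (by rw [hk]; exact dvd_mul_left _ _), hk, Nat.mul_div_cancel _ (Nat.pos_of_ne_zero hk0)]
  · rintro ⟨⟨a, b, c⟩, rfl⟩
    exact ⟨(a, b, c, 1), by simp [Prod.orderOf]⟩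

/-- The same for two factors, given an element realising `P * r`. -/
theorem range_orderOf_square_mul {L Z : Type*} [Group L] [Finite L] [Group Z] [Finite Z] (r S P : ℕ) (hr : r.Prime)
    (hZ : ∀ z : Z, z ^ r = 1) (hSP : Nat.Coprime S P)
    (hdich : ∀ a : L, orderOf a ∣ S * P ∨ ∃ y : L, Commute a y ∧ orderOf y = r)
    (xS xPr : L) (hS : S ∣ orderOf xS) (hPr : P ∣ orderOf xPr ∧ r ∣ orderOf xPr) :
    Set.range (orderOf : L × L × Z → ℕ) = Set.range (orderOf : L × L → ℕ) := by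
  have hgood : ∀ a : L, orderOf a ∣ S * P ∨ ∃ a' : L, orderOf a ∣ orderOf a' ∧ r ∣ orderOf a' := by
    intro a
    rcases hdich a with h | ⟨y, hcomm, hy⟩
    · exact Or.inl h
    · by_cases hra : r ∣ orderOf a
      · exact Or.inr ⟨a, dvd_rfl, hra⟩
      · have hcop : Nat.Coprime (orderOf a) (orderOf y) := by
          rw [hy]; exact (hr.coprime_iff_not_dvd.mpr hra).symm
        refine Or.inr ⟨a * y, ?_, ?_⟩ <;> rw [hcomm.orderOf_mul_eq_mul_orderOf_of_coprime hcop, hy]
        · exact dvd_mul_right _ _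
        · exact dvd_mul_left _ _
  ext o
  constructor
  · rintro ⟨⟨a, b, z⟩, rfl⟩
    have hz : orderOf z ∣ r := orderOf_dvd_of_pow_eq_one (hZ z)
    obtain ⟨t, ht⟩ : ∃ t : L × L, orderOf (a, b, z) ∣ orderOf t := by
      simp only [Prod.orderOf]
      rcases hgood a with ha | ⟨a', h1, h2⟩
      · rcases hgood b with hb | ⟨b', h1, h2⟩
        · refine ⟨(xS, xPr), ?_⟩
          simp only [Prod.orderOf]
          have h : S * P ∣ Nat.lcm (orderOf xS) (orderOf xPr) :=
            hSP.mul_dvd_of_dvd_of_dvd (hS.trans (Nat.dvd_lcm_left _ _)) (hPr.1.trans (Nat.dvd_lcm_right _ _))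
          exact Nat.lcm_dvd (ha.trans h) (Nat.lcm_dvd (hb.trans h) (hz.trans (hPr.2.trans (Nat.dvd_lcm_right _ _))))
        · refine ⟨(a, b'), ?_⟩
          simp only [Prod.orderOf]
          exact Nat.lcm_dvd (Nat.dvd_lcm_left _ _) ((Nat.lcm_dvd h1 (hz.trans h2)).trans (Nat.dvd_lcm_right _ _))
      · refine ⟨(a', b), ?_⟩
        simp only [Prod.orderOf]
        exact Nat.lcm_dvd (h1.trans (Nat.dvd_lcm_left _ _)) (Nat.lcm_dvd (Nat.dvd_lcm_right _ _) (hz.trans (h2.trans (Nat.dvd_lcm_left _ _))))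
    obtain ⟨k, hk⟩ := ht
    refine ⟨t ^ k, ?_⟩
    have hk0 : k ≠ 0 := by
      rintro rfl
      have := orderOf_pos t
      simp [hk] at this
    rw [orderOf_pow_of_dvd hk0 (by rw [hk]; exact dvd_mul_left _ _), hk, Nat.mul_div_cancel _ (Nat.pos_of_ne_zero hk0)]
  · rintro ⟨⟨a, b⟩, rfl⟩
    exact ⟨(a, b, 1), by simp [Prod.orderOf]⟩

end CfsgLib.GLOrders
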